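import Cfsg.Agent.MetacyclicP.Lattice

/-!
Abelian subgroups, power subgroups and the Frattini subgroup of metacyclic `p`-groups, `p` odd.
-/

set_option autoImplicit false

open Subgroup

namespace CfsgLib.MetacyclicP

universe u

namespace Gens

variable {G : Type u} [Group G] [Finite G] {p : ℕ} [hp : Fact p.Prime] {D : Gens G p}

lemma isMulCommutative_mono {H K : Subgroup G} (hle : H ≤ K) (hK : IsMulCommutative K) :
    IsMulCommutative H :=
  ⟨⟨fun a b => Subtype.ext (by
    simpa using congrArg Subtype.val (hK.1.comm ⟨a, hle a.2⟩ ⟨b, hle b.2⟩))⟩⟩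

lemma isMulCommutative_sup_center (D : Gens G p) (hp2 : p ≠ 2) {H : Subgroup G}
    (hH : IsMulCommutative H) : IsMulCommutative ↥(H ⊔ center G) := by
  rw [isMulCommutative_iff (D := D) hp2] at hH ⊢
  rwa [img_sup_center]

lemma card_le_of_isMulCommutative (D : Gens G p) (hp2 : p ≠ 2) {H : Subgroup G}
    (hH : IsMulCommutative H) : Nat.card H ≤ Nat.card ↥(center G) * p ^ D.n := by
  refine (Nat.card_mono (Set.toFinite _) (le_sup_left : H ≤ H ⊔ center G)).trans ?_
  simp only [SetLike.coe_sort_coe]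
  rw [card_img (D := D) hp2]
  exact Nat.mul_le_mul_left _ ((isMulCommutative_iff hp2 H).mp hH)

lemma isMulCommutative_iff_card (D : Gens G p) (hp2 : p ≠ 2) (hG : IsPGroup p G) (L : Subgroup G) :
    IsMulCommutative L ↔ Nat.card L ≤ (commutator G).index := by
  rw [index_commutator (D := D) hp2]
  refine ⟨card_le_of_isMulCommutative D hp2, fun h => ?_⟩
  by_contra hc
  have hZ := center_le_of_not_isMulCommutative D hp2 hG hc
  rw [isMulCommutative_iff (D := D) hp2, not_le] at hc
  have h2 := card_img (D := D) hp2 L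
  rw [sup_eq_left.mpr hZ] at h2
  rw [h2] at h
  exact absurd (Nat.le_of_mul_le_mul_left h Nat.card_pos) (not_le.mpr hc)

lemma card_eq_of_maximal_abelian (D : Gens G p) (hp2 : p ≠ 2) {L : Subgroup G}
    (hL : Maximal (fun K : Subgroup G => IsMulCommutative ↥K) L) :
    Nat.card L = (commutator G).index := by
  have hZ : center G ≤ L :=
    le_trans le_sup_right (hL.2 (isMulCommutative_sup_center D hp2 hL.1) le_sup_left)
  rw [index_commutator (D := D) hp2, ← sup_eq_left.mpr hZ, card_img (D := D) hp2]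
  congr 1
  refine le_antisymm ((isMulCommutative_iff hp2 L).mp hL.1) ?_
  by_contra hlt
  rw [not_le] at hlt
  set M := D.img hp2 L with hM
  have hiso : M ≤ perp M := (le_perp_iff M).mpr hlt.le
  have hne : ¬ perp M ≤ M := fun h => by
    have h1 := (perpSpec M).card_mul
    rw [le_antisymm h hiso] at h1
    exact (Nat.mul_self_lt_mul_self hlt).ne h1
  obtain ⟨y, hy, hyM⟩ := SetLike.not_le_iff_exists.mp hne
  have hy2 : ∀ z ∈ AddSubgroup.zmultiples y, ∀ c ∈ M ⊔ AddSubgroup.zmultiples y, det c z = 0 := by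
    intro z hz c hc
    obtain ⟨m, hm, z', hz', rfl⟩ := AddSubgroup.mem_sup.mp hc
    obtain ⟨k, rfl⟩ := AddSubgroup.mem_zmultiples_iff.mp hz
    obtain ⟨k', rfl⟩ := AddSubgroup.mem_zmultiples_iff.mp hz'
    rw [show det (m + k' • y) (k • y) = k • det m y + (k' * k) • det y y by simp [det]; ring,
      hy m hm, show det y y = 0 by simp [det]; ring]
    simp
  have hM2 : M ⊔ AddSubgroup.zmultiples y ≤ perp (M ⊔ AddSubgroup.zmultiples y) := by
    refine sup_le (fun z hz c hc => ?_) (fun z hz c hc => hy2 z hz c hc)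
    obtain ⟨m, hm, z', hz', rfl⟩ := AddSubgroup.mem_sup.mp hc
    obtain ⟨k', rfl⟩ := AddSubgroup.mem_zmultiples_iff.mp hz'
    rw [show det (m + k' • y) z = det m z - k' • det z y by simp [det]; ring, hiso hz m hm,
      hy z hz]
    simp
  have hcomm : IsMulCommutative ↥(D.pre hp2 (M ⊔ AddSubgroup.zmultiples y)) := by
    rw [isMulCommutative_iff (D := D) hp2, img_pre, ← le_perp_iff]; exact hM2
  have hle : L ≤ D.pre hp2 (M ⊔ AddSubgroup.zmultiples y) :=
    (le_pre_img hp2 L).trans (pre_mono hp2 le_sup_left)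
  obtain ⟨g, rfl⟩ := phi_surjective (D := D) hp2 y
  exact hyM ⟨g, hL.2 hcomm hle (show g ∈ D.pre hp2 _ from
    AddSubgroup.mem_sup_right (AddSubgroup.mem_zmultiples _)), rfl⟩

lemma maximal_abelian_iff (D : Gens G p) (hp2 : p ≠ 2) (hG : IsPGroup p G) (L : Subgroup G) :
    Maximal (fun K : Subgroup G => IsMulCommutative ↥K) L ↔
      Nat.card L = (commutator G).index := by
  refine ⟨card_eq_of_maximal_abelian D hp2, fun h =>
    ⟨(isMulCommutative_iff_card D hp2 hG L).mpr h.le, fun B hB hle => ?_⟩⟩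
  exact (eq_of_le_of_card_ge hle (h ▸ (isMulCommutative_iff_card D hp2 hG B).mp hB)).ge

lemma card_center_subgroup (H : Subgroup G) :
    Nat.card (center ↥H) = Nat.card ↥(H ⊓ centralizer (H : Set G)) := by
  refine Nat.card_congr
    { toFun := fun z => ⟨z.1.1, z.1.2, fun h hh =>
        congrArg Subtype.val (Subgroup.mem_center_iff.mp z.2 ⟨h, hh⟩)⟩
      invFun := fun z => ⟨⟨z.1, z.2.1⟩, Subgroup.mem_center_iff.mpr fun h =>
        Subtype.ext (z.2.2 h.1 h.2)⟩
      left_inv := fun z => rfl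
      right_inv := fun z => rfl }

/-- `|R| |Z(R)|` for all `R`. -/
lemma card_mul_card_center (D : Gens G p) (hp2 : p ≠ 2) (hG : IsPGroup p G) (R : Subgroup G) :
    Nat.card R * Nat.card (center ↥R) ≤ (commutator G).index ^ 2 ∧
    (Nat.card R * Nat.card (center ↥R) = (commutator G).index ^ 2 ↔
      (¬ IsMulCommutative ↥R ∨ Nat.card R = (commutator G).index)) := by
  by_cases hR : IsMulCommutative R
  · have hc : R ⊓ centralizer (R : Set G) = R :=
      inf_eq_left.mpr (le_centralizer_iff_isMulCommutative.mpr hR)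
    rw [card_center_subgroup, hc, sq]
    have hle := (isMulCommutative_iff_card D hp2 hG R).mp hR
    refine ⟨Nat.mul_le_mul hle hle, fun h => Or.inr ?_, fun h => ?_⟩
    · exact Nat.mul_self_inj.mp h
    · rw [h.resolve_left (not_not.mpr hR)]
  · have hZ := center_le_of_not_isMulCommutative D hp2 hG hR
    have hlt := hR
    rw [isMulCommutative_iff (D := D) hp2, not_le] at hlt
    have hC : centralizer (R : Set G) ≤ R := by
      rw [centralizer_eq_pre (D := D) hp2]
      exact (pre_mono hp2 ((perpSpec _).lt_of_card_gt hlt).le).trans (pre_img_of_le hp2 hZ).le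
    have h1 := card_centralizer_mul D hp2 R
    rw [sup_eq_left.mpr hZ] at h1
    rw [card_center_subgroup, inf_eq_right.mpr hC, h1, index_commutator (D := D) hp2,
      card_eq (D := D) hp2]
    refine ⟨le_of_eq (by ring), iff_of_true (by ring) (Or.inl hR)⟩

lemma closure_pow_eq (D : Gens G p) (hp2 : p ≠ 2) {s : ℕ} (hs : s ≤ D.n) :
    closure {x : G | ∃ y : G, y ^ p ^ s = x} = D.layer hp2 (D.n - s) := by
  apply le_antisymm
  · rw [closure_le]
    rintro _ ⟨y, rfl⟩
    obtain ⟨i, j, rfl⟩ := D.surj y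
    show D.phi _ ∈ (kerPow p D.n (D.n - s)).prod (kerPow p D.n (D.n - s))
    rw [D.pow_eq, phi_eq hp2, AddSubgroup.mem_prod, mem_kerPow, mem_kerPow]
    have key : ∀ x : ℤ, (p : ℤ) ^ s ∣ x →
        (p : ZMod (p ^ D.n)) ^ (D.n - s) * (x : ZMod (p ^ D.n)) = 0 := by
      intro x hx
      rw [show (p : ZMod (p ^ D.n)) ^ (D.n - s) = (((p : ℤ) ^ (D.n - s) : ℤ) : ZMod (p ^ D.n)) by
        push_cast; rfl, ← Int.cast_mul, ZMod.intCast_zmod_eq_zero_iff_dvd]
      push_cast
      refine dvd_trans ?_ (mul_dvd_mul_left _ hx)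
      rw [← pow_add, show D.n - s + s = D.n by omega]
    exact ⟨key _ (((pow_dvd_geom_iff hp2 (pow_sub_one_dvd D.hr j) s _).mpr dvd_rfl).mul_left _),
      key _ ((pow_dvd_geom_iff hp2 D.hr s _).mpr (dvd_mul_left _ _))⟩
  · intro g hg
    obtain ⟨i, j, rfl⟩ := D.surj g
    change D.phi _ ∈ (kerPow p D.n (D.n - s)).prod (kerPow p D.n (D.n - s)) at hg
    rw [phi_eq hp2, AddSubgroup.mem_prod, mem_kerPow, mem_kerPow] at hg
    obtain ⟨⟨i', rfl⟩, ⟨j', rfl⟩⟩ := dvd_of_pow_smul_phi (D := D) (k := D.n - s) (s := s) hp2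
      (by omega) hg.1 hg.2
    refine mul_mem (subset_closure ⟨D.a ^ i', ?_⟩) (subset_closure ⟨D.b ^ j', ?_⟩)
    · rw [← zpow_natCast, ← zpow_mul]; congr 1; push_cast; ring
    · rw [← pow_mul, mul_comm]

lemma not_mem_frattini_iff (D : Gens G p) (hp2 : p ≠ 2) (hG : IsPGroup p G) (hn : 0 < D.n)
    (g : G) : g ∉ frattini G ↔ (centralizer ({g} : Set G)).index = p ^ D.n := by
  haveI : NeZero (p ^ D.n) := ⟨pow_ne_zero _ hp.out.ne_zero⟩
  have hfr : frattini G = D.layer hp2 (D.n - 1) := by
    apply le_antisymm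
    · have hidx : ∀ A B : AddSubgroup (ZMod (p ^ D.n)),
          Nat.card A * Nat.card B * p = p ^ D.n * p ^ D.n → IsCoatom (D.pre hp2 (A.prod B)) := by
        intro A B hAB
        have hi : (D.pre hp2 (A.prod B)).index = p := by
          have h := (D.pre hp2 (A.prod B)).card_mul_index
          rw [card_pre, Nat.card_congr (A.prodEquiv B).toEquiv, Nat.card_prod,
            card_eq (D := D) hp2, ← hAB, mul_assoc] at h
          have h' := Nat.eq_of_mul_eq_mul_left Nat.card_pos h
          exact Nat.eq_of_mul_eq_mul_left (Nat.mul_pos Nat.card_pos Nat.card_pos) h'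
        refine ⟨fun h => hp.out.ne_one (by rw [← hi, h, index_top]), fun K hK => ?_⟩
        have hd := relIndex_mul_index hK.le
        rw [hi] at hd
        rcases hp.out.eq_one_or_self_of_dvd _ (dvd_of_mul_left_eq _ hd) with h | h
        · exact index_eq_one.mp h
        · rw [h] at hd
          have : (D.pre hp2 (A.prod B)).relIndex K = 1 :=
            (Nat.mul_eq_right hp.out.ne_zero).mp hd
          exact absurd (relIndex_eq_one.mp this) hK.not_ge
      have hcard : ∀ k ≤ D.n, Nat.card (kerPow p D.n k) = p ^ k := fun k hk => card_kerPow hk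
      have h1 : IsCoatom (D.pre hp2 ((kerPow p D.n (D.n - 1)).prod (kerPow p D.n D.n))) :=
        hidx _ _ (by rw [hcard _ (Nat.sub_le _ _), hcard _ le_rfl, mul_right_comm, ← pow_succ,
          Nat.sub_add_cancel hn])
      have h2 : IsCoatom (D.pre hp2 ((kerPow p D.n D.n).prod (kerPow p D.n (D.n - 1)))) :=
        hidx _ _ (by rw [hcard _ (Nat.sub_le _ _), hcard _ le_rfl, mul_assoc, ← pow_succ,
          Nat.sub_add_cancel hn])
      exact fun x hx => ⟨(frattini_le_coatom h1 hx).1, (frattini_le_coatom h2 hx).2⟩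
    · rw [← closure_pow_eq D hp2 (show 1 ≤ D.n by omega), closure_le]
      rintro _ ⟨y, rfl⟩
      rw [frattini, Order.radical, SetLike.mem_coe, Subgroup.mem_iInf]
      intro K
      rw [Subgroup.mem_iInf, pow_one]
      exact fun hK => pow_mem_of_isCoatom hG hK y
  rw [hfr, mem_layer, index_centralizer_singleton D hp2]
  obtain ⟨k, hk, hord⟩ := (Nat.dvd_prime_pow hp.out).mp
    (addOrderOf_dvd_of_nsmul_eq_zero (show p ^ D.n • D.phi g = 0 by
      apply Prod.ext <;>
        simp only [Prod.smul_fst, Prod.smul_snd, nsmul_eq_mul, ZMod.natCast_self, zero_mul,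
          Prod.fst_mul, Prod.snd_mul, Prod.fst_natCast, Prod.snd_natCast,
          Prod.fst_zero, Prod.snd_zero]))
  rw [hord, Nat.pow_dvd_pow_iff_le_right hp.out.one_lt,
    (Nat.pow_right_injective hp.out.two_le).eq_iff]
  omega

end Gens

end CfsgLib.MetacyclicP
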