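import Cfsg.Agent.MetacyclicP.Split
import Cfsg.Agent.RankTwoP.Central
import Cfsg.Agent.PGroup.Normal

/-!
Metacyclic `p`-groups, `p` odd, without cyclic subgroups of index `p`, and facts about groups of
maximal class used for their automorphisms of order `p`.
-/

set_option autoImplicit false

open Subgroup
open scoped commutatorElement

namespace CfsgLib.MetacyclicP

universe u

variable {G : Type u} [Group G] [Finite G] {p : ℕ} [hp : Fact p.Prime]

/-- Commutators with a normal subgroup of order `p²` are central and lie in it. -/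
theorem comm_mem_center_sq (hG : IsPGroup p G) {W : Subgroup G} [W.Normal]
    (hW : Nat.card W = p ^ 2) {v : G} (hv : v ∈ W) (g : G) :
    ⁅g, v⁆ ∈ W ∧ ⁅g, v⁆ ∈ center G := by
  haveI := hG.isNilpotent
  set K : Subgroup G := ⁅(⊤ : Subgroup G), W⁆ with hK
  have hKW : K ≤ W := Subgroup.commutator_le_right ⊤ W
  have hmem : ⁅g, v⁆ ∈ K := commutator_mem_commutator (mem_top g) hv
  refine ⟨hKW hmem, ?_⟩
  have hKne : K ≠ W := by
    intro he
    have hall : ∀ n, W ≤ (⊤ : Subgroup G).lowerCentralSeries n := by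
      intro n
      induction n with
      | zero => simp
      | succ n ih =>
        rw [Subgroup.lowerCentralSeries_succ]
        calc W = K := he.symm
          _ ≤ _ := by
            rw [hK, Subgroup.commutator_comm]
            exact Subgroup.commutator_mono ih le_rfl
    obtain ⟨n, hn⟩ := Subgroup.nilpotent_iff_lowerCentralSeries.mp ‹Group.IsNilpotent G›
    have hb : W = ⊥ := le_bot_iff.mp (hn ▸ hall n)
    rw [hb, card_bot] at hW
    exact absurd hW (Nat.one_lt_pow two_ne_zero hp.out.one_lt).ne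
  obtain ⟨j, hj, hjc⟩ := (Nat.dvd_prime_pow hp.out).mp (hW ▸ card_dvd_of_le hKW)
  match j, hj, hjc with
  | 0, _, h => rw [(card_eq_one.mp (h.trans (pow_zero p)) : K = ⊥), mem_bot] at hmem
               rw [hmem]; exact one_mem _
  | 1, _, h => exact CfsgLib.PGroup.le_center_of_card_eq hG K (h.trans (pow_one p)) hmem
  | 2, _, h => exact absurd (eq_of_le_of_card_ge hKW (by rw [h, hW])) hKne

/-- A normal subgroup of order `p²` lies in the second centre. -/
theorem le_upper_two (hG : IsPGroup p G) {W : Subgroup G} [W.Normal] (hW : Nat.card W = p ^ 2) :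
    W ≤ Subgroup.upperCentralSeries G 2 := by
  intro x hx y
  show ⁅x, y⁆ ∈ Subgroup.upperCentralSeries G 1
  rw [Subgroup.upperCentralSeries_one, ← commutatorElement_inv]
  exact inv_mem (comm_mem_center_sq hG hW hx y).2

/-- In a group of order `p ^ (c + 1)` and class `c ≥ 3` the centre has order at most `p` and
the second centre at most `p²`. -/
theorem card_upper_le (hG : IsPGroup p G) {c : ℕ} (hc : 3 ≤ c) (hn : Nat.card G = p ^ (c + 1))
    (hcl : Group.nilpotencyClass G = c) :
    Nat.card (center G) ≤ p ∧ Nat.card (Subgroup.upperCentralSeries G 2) ≤ p ^ 2 := by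
  haveI := hG.isNilpotent
  set u := fun j => Nat.card (Subgroup.upperCentralSeries G j) with hu
  have hstep : ∀ j, j < c → p * u j ≤ u (j + 1) := by
    intro j hj
    have hlt : Subgroup.upperCentralSeries G j < Subgroup.upperCentralSeries G (j + 1) :=
      Subgroup.upperCentralSeries.StrictMonoOn G (Set.mem_Iic.mpr (hcl ▸ hj.le))
        (Set.mem_Iic.mpr (hcl ▸ hj)) (Nat.lt_succ_self j)
    obtain ⟨e, he⟩ := IsPGroup.iff_card.mp (hG.to_subgroup (Subgroup.upperCentralSeries G j))
    obtain ⟨f, hf⟩ := IsPGroup.iff_card.mp (hG.to_subgroup (Subgroup.upperCentralSeries G (j + 1)))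
    have hlt' : Nat.card (Subgroup.upperCentralSeries G j) < Nat.card (Subgroup.upperCentralSeries G (j + 1)) :=
      Set.ncard_lt_ncard hlt (Set.toFinite _)
    simp only [hu]
    rw [he, hf] at hlt' ⊢
    rw [← pow_succ']
    exact Nat.pow_le_pow_right hp.out.pos ((Nat.pow_lt_pow_iff_right hp.out.one_lt).mp hlt')
  have hiter : ∀ i j, j + i ≤ c → p ^ i * u j ≤ u (j + i) := by
    intro i
    induction i with
    | zero => simp
    | succ i ih =>
      intro j hj
      calc p ^ (i + 1) * u j = p * (p ^ i * u j) := by ring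
        _ ≤ p * u (j + i) := Nat.mul_le_mul_left p (ih j (by omega))
        _ ≤ _ := hstep _ (by omega)
  obtain ⟨d, hd⟩ : ∃ d, c = d + 3 := ⟨c - 3, by omega⟩
  subst hd
  set M := Subgroup.upperCentralSeries G (d + 2) with hM
  have hMtop : M ≠ ⊤ := fun h => by
    have := Subgroup.upperCentralSeries_eq_top_iff_nilpotencyClass_le.mp h
    omega
  have hlast : u (d + 2) ≤ p ^ (d + 2) := by
    obtain ⟨e, he⟩ := IsPGroup.iff_card.mp (hG.to_subgroup M)
    show Nat.card M ≤ _
    rw [he]
    refine Nat.pow_le_pow_right hp.out.pos ?_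
    by_contra h
    have hle : p ^ e ≤ p ^ (d + 3 + 1) := he ▸ hn ▸ M.card_le_card_group
    have hle' : e ≤ d + 3 + 1 := (Nat.pow_le_pow_iff_right hp.out.one_lt).mp hle
    have hidx := M.card_mul_index
    rw [he, hn] at hidx
    rcases Nat.lt_or_ge e (d + 3 + 1) with he' | he'
    · rw [show e = d + 3 by omega, pow_succ p (d + 3)] at hidx
      have hi : M.index = p := Nat.eq_of_mul_eq_mul_left (pow_pos hp.out.pos _) hidx
      haveI : IsCyclic (G ⧸ M) := isCyclic_of_prime_card (p := p) (by rwa [← index_eq_card])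
      set N := Subgroup.upperCentralSeries G (d + 1) with hN
      have hNM : N ≤ M.comap (MonoidHom.id G) := Subgroup.upperCentralSeries_mono G (Nat.le_succ _)
      apply hMtop
      rw [eq_top_iff]
      intro x _ y
      show ⁅x, y⁆ ∈ N
      rw [← QuotientGroup.eq_one_iff, ← QuotientGroup.mk'_apply, map_commutatorElement,
        commutatorElement_eq_one_iff_mul_comm]
      refine commutative_of_cyclic_center_quotient (QuotientGroup.map N M (MonoidHom.id G) hNM)
        (fun q hq => ?_) _ _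
      obtain ⟨q, rfl⟩ := QuotientGroup.mk_surjective q
      rw [MonoidHom.mem_ker, QuotientGroup.map_mk, MonoidHom.id_apply, QuotientGroup.eq_one_iff] at hq
      rw [Subgroup.mem_center_iff]
      intro r
      obtain ⟨r, rfl⟩ := QuotientGroup.mk_surjective r
      rw [eq_comm, ← commutatorElement_eq_one_iff_mul_comm, ← QuotientGroup.mk'_apply N,
        ← QuotientGroup.mk'_apply N, ← map_commutatorElement, QuotientGroup.mk'_apply,
        QuotientGroup.eq_one_iff]
      exact hq r
    · exact hMtop ((card_eq_iff_eq_top M).mp (by rw [he, hn, show e = d + 3 + 1 by omega]))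
  constructor
  · have h : p ^ (d + 1) * u 1 ≤ p ^ (d + 2) := by
      refine (hiter (d + 1) 1 (by omega)).trans ?_
      rw [show 1 + (d + 1) = d + 2 by omega]; exact hlast
    rw [show p ^ (d + 2) = p ^ (d + 1) * p from pow_succ p _] at h
    rw [← Subgroup.upperCentralSeries_one]
    exact Nat.le_of_mul_le_mul_left h (pow_pos hp.out.pos _)
  · have h : p ^ d * u 2 ≤ p ^ (d + 2) := by
      refine (hiter d 2 (by omega)).trans ?_
      rw [show 2 + d = d + 2 by omega]; exact hlast
    rw [pow_add] at h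
    exact Nat.le_of_mul_le_mul_left h (pow_pos hp.out.pos _)

omit hp in
/-- In a cyclic group a cyclic subgroup of order `d` contains all solutions of `x ^ d = 1`. -/
theorem mem_zpowers_of_pow_eq_one {K : Type u} [Group K] [Finite K] [IsCyclic K] {g x : K}
    (hx : x ^ orderOf g = 1) : x ∈ zpowers g := by
  classical
  haveI := Fintype.ofFinite K
  set S : Set K := {y | y ^ orderOf g = 1} with hS
  have hsub : (zpowers g : Set K) ⊆ S := fun y hy =>
    orderOf_dvd_iff_pow_eq_one.mp (orderOf_dvd_of_mem_zpowers hy)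
  have hcard : S.ncard ≤ (zpowers g : Set K).ncard := by
    rw [show (zpowers g : Set K).ncard = orderOf g from Nat.card_zpowers g,
      show S = ↑(Finset.univ.filter fun y : K => y ^ orderOf g = 1) by ext y; simp [hS],
      Set.ncard_coe_finset]
    exact IsCyclic.card_pow_eq_one_le (orderOf_pos g)
  exact (Set.eq_of_subset_of_ncard_le hsub hcard (Set.toFinite S)).symm.le hx

namespace Gens

variable (D : Gens G p)
include D

/-- The commutator subgroup consists of `p`-th powers of elements of `⟨a⟩`. -/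
theorem exists_pow_eq_of_mem_commutator {x : G} (hx : x ∈ commutator G) : ∃ y, y ^ p = x := by
  rw [D.commutator_mem_zpowers D.surj] at hx
  obtain ⟨i, rfl⟩ := mem_zpowers_iff.mp hx
  obtain ⟨k, hk⟩ := D.hr
  refine ⟨D.a ^ (k * i), ?_⟩
  rw [← zpow_natCast, ← zpow_mul, ← zpow_mul, hk]
  congr 1; ring

theorem isCyclic_commutator : IsCyclic (commutator G) := by
  rw [D.commutator_mem_zpowers D.surj]
  infer_instance

variable (hp2 : p ≠ 2) (hG : IsPGroup p G) (hexp : ∀ g : G, ∀ m, Nat.card G = p ^ m → g ^ p ^ (m - 2) = 1)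
include hp2 hexp

/-- Elements of order `p` are `p`-th powers. -/
theorem exists_root {c : G} (hc : c ^ p = 1) : ∃ d, d ^ p = c := by
  have hpZ : Prime (p : ℤ) := Nat.prime_iff_prime_int.mp hp.out
  have hp0 : (p : ℤ) ≠ 0 := hpZ.ne_zero
  set α := D.α with hαdef
  set β := D.β with hβdef
  have hcard : Nat.card G = p ^ (α + β) := by rw [D.card_eq_pow, pow_add]
  by_cases h2 : α + β ≤ 2
  · have := hexp c _ hcard
    rw [Nat.sub_eq_zero_of_le h2, pow_zero, pow_one] at this
    exact ⟨1, by rw [one_pow, this]⟩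
  have hβ2 : 2 ≤ β := by
    by_contra h
    have h1 := orderOf_dvd_of_pow_eq_one (hexp D.a _ hcard)
    rw [D.order_a, Nat.pow_dvd_pow_iff_le_right hp.out.one_lt] at h1
    omega
  have ht : (p : ℤ) ^ 2 ∣ D.t ∨ α ≤ 1 := by
    by_contra h
    rw [not_or] at h
    obtain ⟨h, hα⟩ := h
    apply h
    have h1 := hexp D.b _ hcard
    rw [show α + β - 2 = β + (α - 2) by omega, pow_add, pow_mul, D.pow_b, ← zpow_natCast, ← zpow_mul,
      D.zpow_a_eq_one_iff, ← hαdef, show α = 2 + (α - 2) by omega, pow_add] at h1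
    push_cast at h1
    rw [show 2 + (α - 2) - 2 = α - 2 by omega] at h1
    exact Int.dvd_of_mul_dvd_mul_right (pow_ne_zero _ hp0) h1
  have hα2 : 2 ≤ α := by
    by_contra h
    have h1 := hexp D.b _ hcard
    have h3 := D.pow_b_mem _ (h1 ▸ one_mem (zpowers D.a))
    rw [Nat.pow_dvd_pow_iff_le_right hp.out.one_lt] at h3
    omega
  replace ht : (p : ℤ) ^ 2 ∣ D.t := ht.resolve_right (by omega)
  obtain ⟨i, j, rfl⟩ := D.surj c
  rw [D.pow_eq] at hc
  have hb : D.b ^ (j * p) = D.a ^ (-(i * geom (D.r ^ j) p)) := by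
    rw [zpow_neg]; exact eq_inv_of_mul_eq_one_right hc
  obtain ⟨hj, hi⟩ := D.dvd_of_pow_b_eq hα2 ht hb
  have hjp : p ∣ j := by
    have : p ^ 2 ∣ j * p := (pow_dvd_pow p hβ2).trans hj
    rw [pow_two] at this
    exact Nat.dvd_of_mul_dvd_mul_right hp.out.pos this
  obtain ⟨ε, hε, hε1⟩ := geom_prime_pow hp2 1 (pow_sub_one_dvd D.hr j)
  rw [pow_one, pow_one] at hε
  have hεp : ¬ (p : ℤ) ∣ ε := fun h => hpZ.not_dvd_one (by simpa using dvd_sub h hε1)
  have hip : (p : ℤ) ∣ i := by
    rw [dvd_neg, hε, pow_two, mul_left_comm] at hi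
    exact (hpZ.dvd_mul.mp (Int.dvd_of_mul_dvd_mul_left hp0 hi)).resolve_right hεp
  obtain ⟨i', rfl⟩ := hip
  obtain ⟨j', rfl⟩ := hjp
  obtain ⟨ε', hε', hε1'⟩ := geom_prime_pow hp2 1 (pow_sub_one_dvd D.hr j')
  rw [pow_one, pow_one] at hε'
  have hcop : IsCoprime ε' ((p : ℤ) ^ α) := by
    refine IsCoprime.pow_right ?_
    obtain ⟨k, hk⟩ := hε1'
    exact ⟨1, -k, by linear_combination hk⟩
  obtain ⟨v, w, hvw⟩ := hcop
  refine ⟨D.a ^ (i' * v) * D.b ^ j', ?_⟩
  rw [D.pow_eq, hε', mul_comm j' p]
  congr 1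
  rw [← mul_inv_eq_one, ← zpow_sub, D.zpow_a_eq_one_iff]
  exact ⟨-((p : ℤ) * i' * w), by linear_combination (p : ℤ) * i' * hvw⟩

omit hexp in
/-- If the commutator subgroup has order at most `p`, then `p`-th powers are central. -/
theorem pow_mem_center (hG : IsPGroup p G) (hle : Nat.card (commutator G) ≤ p) (d : G) :
    d ^ p ∈ center G := by
  have hpow : ∀ w ∈ commutator G, w ∈ center G ∧ w ^ p = 1 := by
    intro w hw
    obtain ⟨k, hk⟩ := IsPGroup.iff_card.mp (hG.to_subgroup (commutator G))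
    have hk1 : k ≤ 1 := (Nat.pow_le_pow_iff_right hp.out.one_lt).mp ((hk ▸ hle).trans (pow_one p).ge)
    rcases Nat.le_one_iff_eq_zero_or_eq_one.mp hk1 with rfl | rfl
    · rw [card_eq_one.mp (hk.trans (pow_zero p)), mem_bot] at hw
      rw [hw]; exact ⟨one_mem _, one_pow p⟩
    · rw [pow_one] at hk
      exact ⟨CfsgLib.PGroup.le_center_of_card_eq hG _ hk hw,
        orderOf_dvd_iff_pow_eq_one.mp (hk ▸ Subgroup.orderOf_dvd_natCard _ hw)⟩
  rw [Subgroup.mem_center_iff]
  intro g
  obtain ⟨hwc, hwp⟩ := hpow ⁅g, d⁆ (by rw [commutator_def]; exact commutator_mem_commutator (mem_top g) (mem_top d))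
  rw [← mul_inv_eq_iff_eq_mul, ← conj_pow,
    show g * d * g⁻¹ = ⁅g, d⁆ * d by rw [commutatorElement_def]; group,
    (show Commute ⁅g, d⁆ d from (Subgroup.mem_center_iff.mp hwc d).symm).mul_pow, hwp, one_mul]

end Gens

end CfsgLib.MetacyclicP
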