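import Mathlib

/-!
The alternating form `det` on `ZMod (p ^ n) × ZMod (p ^ n)`: perpendicular subgroups.
-/

set_option autoImplicit false

namespace CfsgLib.MetacyclicP

variable {p n : ℕ}

/-- The plane over `ZMod (p ^ n)`. -/
abbrev Plane (p n : ℕ) : Type := ZMod (p ^ n) × ZMod (p ^ n)

/-- The alternating form. -/
def det (x y : Plane p n) : ZMod (p ^ n) := x.2 * y.1 - x.1 * y.2

lemma det_comm (x y : Plane p n) : det y x = -det x y := by simp [det]; ring

/-- The perpendicular subgroup. -/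
def perp (M : AddSubgroup (Plane p n)) : AddSubgroup (Plane p n) where
  carrier := {y | ∀ x ∈ M, det x y = 0}
  zero_mem' := fun x _ => by simp [det]
  add_mem' := fun {y z} hy hz x hx => by
    rw [show det x (y + z) = det x y + det x z by simp [det]; ring, hy x hx, hz x hx, add_zero]
  neg_mem' := fun {y} hy x hx => by
    rw [show det x (-y) = -det x y by simp [det]; ring, hy x hx, neg_zero]

lemma smul_mem_addSubgroup (M : AddSubgroup (Plane p n)) [NeZero (p ^ n)] (c : ZMod (p ^ n))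
    {x : Plane p n} (hx : x ∈ M) : c • x ∈ M := by
  have : c • x = c.val • x := by rw [← Nat.cast_smul_eq_nsmul (ZMod (p ^ n)), ZMod.natCast_zmod_val]
  rw [this]; exact AddSubgroup.nsmul_mem _ hx _

/-- `{x | p ^ k x = 0}`. -/
def kerPow (p n k : ℕ) : AddSubgroup (ZMod (p ^ n)) :=
  (nsmulAddMonoidHom (α := ZMod (p ^ n)) (p ^ k)).ker

lemma mem_kerPow {k : ℕ} {x : ZMod (p ^ n)} : x ∈ kerPow p n k ↔ (p : ZMod (p ^ n)) ^ k * x = 0 := by
  simp [kerPow, nsmul_eq_mul]

lemma card_kerPow [NeZero (p ^ n)] {k : ℕ} (hk : k ≤ n) : Nat.card (kerPow p n k) = p ^ k := by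
  rw [kerPow, IsAddCyclic.card_nsmulAddMonoidHom_ker, Nat.card_zmod,
    Nat.gcd_eq_right (pow_dvd_pow p hk)]

lemma kerPow_mono {j k : ℕ} (h : j ≤ k) : kerPow p n j ≤ kerPow p n k := fun x hx => by
  rw [mem_kerPow] at *
  rw [show k = j + (k - j) by omega, pow_add, mul_right_comm, hx, zero_mul]

variable [hp : Fact p.Prime]

lemma exists_eq_kerPow (I : AddSubgroup (ZMod (p ^ n))) : ∃ k ≤ n, I = kerPow p n k := by
  haveI : NeZero (p ^ n) := ⟨pow_ne_zero _ hp.out.ne_zero⟩
  obtain ⟨k, hk, hk'⟩ := (Nat.dvd_prime_pow hp.out).mp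
    (Nat.card_zmod (p ^ n) ▸ AddSubgroup.card_addSubgroup_dvd_card I)
  refine ⟨k, hk, AddSubgroup.eq_of_le_of_card_ge (fun x hx => ?_) (by rw [card_kerPow hk, hk'])⟩
  have h1 : Nat.card I • (⟨x, hx⟩ : I) = 0 := card_nsmul_eq_zero'
  have h2 := congrArg Subtype.val h1
  simpa [kerPow, hk', AddMonoidHom.mem_ker] using h2

lemma exists_eq_mul_of_mem_kerPow {k : ℕ} (hk : k ≤ n) {x : ZMod (p ^ n)}
    (hx : x ∈ kerPow p n k) : ∃ x' : ZMod (p ^ n), x = (p : ZMod (p ^ n)) ^ (n - k) * x' := by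
  haveI : NeZero (p ^ n) := ⟨pow_ne_zero _ hp.out.ne_zero⟩
  rw [mem_kerPow, ← ZMod.natCast_zmod_val x, ← Nat.cast_pow, ← Nat.cast_mul,
    ZMod.natCast_eq_zero_iff] at hx
  nth_rw 1 [show n = k + (n - k) by omega] at hx
  rw [pow_add, Nat.mul_dvd_mul_iff_left (pow_pos hp.out.pos k)] at hx
  obtain ⟨c, hc⟩ := hx
  exact ⟨c, by rw [← ZMod.natCast_zmod_val x, hc]; push_cast; rfl⟩

lemma mem_kerPow_sub_iff {k : ℕ} (hk : k ≤ n) {y : ZMod (p ^ n)} :
    y ∈ kerPow p n (n - k) ↔ ∀ x ∈ kerPow p n k, x * y = 0 := by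
  constructor
  · intro hy x hx
    obtain ⟨x', rfl⟩ := exists_eq_mul_of_mem_kerPow hk hx
    rw [mem_kerPow] at hy
    rw [mul_right_comm, hy, zero_mul]
  · intro h
    rw [mem_kerPow]
    refine h _ ?_
    rw [mem_kerPow, ← pow_add, show k + (n - k) = n by omega, ← Nat.cast_pow, ZMod.natCast_self]

/-- Shear coordinates. -/
def shear (μ : ZMod (p ^ n)) : Plane p n ≃+ Plane p n where
  toFun z := (z.1, z.2 + μ * z.1)
  invFun z := (z.1, z.2 - μ * z.1)
  left_inv z := by simp
  right_inv z := by simp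
  map_add' y z := by simp; ring

lemma det_shear (μ : ZMod (p ^ n)) (x y : Plane p n) : det (shear μ x) (shear μ y) = det x y := by
  simp [shear, det]; ring

lemma perp_map (e : Plane p n ≃+ Plane p n) (s : ZMod (p ^ n)) (hs : IsUnit s)
    (he : ∀ x y, det (e x) (e y) = s * det x y) (M : AddSubgroup (Plane p n)) :
    perp (M.map e.toAddMonoidHom) = (perp M).map e.toAddMonoidHom := by
  ext y
  obtain ⟨y, rfl⟩ := e.surjective y
  rw [AddSubgroup.mem_map_equiv, e.symm_apply_apply]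
  show (∀ x ∈ M.map e.toAddMonoidHom, det x (e y) = 0) ↔ ∀ x ∈ M, det x y = 0
  simp only [AddSubgroup.mem_map, forall_exists_index, and_imp, forall_apply_eq_imp_iff₂]
  refine forall₂_congr fun x _ => ?_
  show det (e x) (e y) = 0 ↔ _
  rw [he, hs.mul_right_eq_zero]

/-- A product of two cyclic subgroups has the expected perpendicular. -/
lemma perp_prod {k l : ℕ} (hk : k ≤ n) (hl : l ≤ n) :
    perp ((kerPow p n k).prod (kerPow p n l)) =
      (kerPow p n (n - l)).prod (kerPow p n (n - k)) := by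
  ext ⟨y1, y2⟩
  rw [AddSubgroup.mem_prod, mem_kerPow_sub_iff hl, mem_kerPow_sub_iff hk]
  show (∀ x ∈ (kerPow p n k).prod (kerPow p n l), det x (y1, y2) = 0) ↔ _
  constructor
  · intro h
    exact ⟨fun x hx => by simpa [det] using h (0, x) ⟨zero_mem _, hx⟩,
      fun x hx => by simpa [det] using h (x, 0) ⟨hx, zero_mem _⟩⟩
  · rintro ⟨h1, h2⟩ ⟨x1, x2⟩ ⟨hx1, hx2⟩
    simp [det, h1 x2 hx2, h2 x1 hx1]

/-- Duality and the trichotomy for perpendicular subgroups. -/
structure PerpSpec (M : AddSubgroup (Plane p n)) : Prop where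
  card_mul : Nat.card M * Nat.card (perp M) = p ^ n * p ^ n
  le_of_card_le : Nat.card M ≤ p ^ n → M ≤ perp M
  lt_of_card_gt : p ^ n < Nat.card M → perp M < M

lemma perpSpec_prod {k l : ℕ} (hk : k ≤ n) (hl : l ≤ n) :
    PerpSpec ((kerPow p n k).prod (kerPow p n l)) := by
  haveI : NeZero (p ^ n) := ⟨pow_ne_zero _ hp.out.ne_zero⟩
  have hc : ∀ {a b : ℕ}, a ≤ n → b ≤ n →
      Nat.card ((kerPow p n a).prod (kerPow p n b)) = p ^ a * p ^ b := fun ha hb => by
    rw [Nat.card_congr ((kerPow p n _).prodEquiv (kerPow p n _)).toEquiv, Nat.card_prod,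
      card_kerPow ha, card_kerPow hb]
  constructor
  · rw [perp_prod hk hl, hc hk hl, hc (Nat.sub_le _ _) (Nat.sub_le _ _), ← pow_add, ← pow_add,
      ← pow_add, ← pow_add]
    congr 1; omega
  · rw [perp_prod hk hl, hc hk hl, ← pow_add, Nat.pow_le_pow_iff_right hp.out.one_lt]
    exact fun h => AddSubgroup.prod_mono (kerPow_mono (by omega)) (kerPow_mono (by omega))
  · rw [perp_prod hk hl, hc hk hl, ← pow_add, Nat.pow_lt_pow_iff_right hp.out.one_lt]
    intro h
    refine lt_of_le_of_ne (AddSubgroup.prod_mono (kerPow_mono (by omega)) (kerPow_mono (by omega)))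
      fun he => ?_
    have := congrArg (fun S : AddSubgroup (Plane p n) => Nat.card S) he
    simp only [hc hk hl, hc (Nat.sub_le _ _) (Nat.sub_le _ _), ← pow_add] at this
    have := Nat.pow_right_injective hp.out.two_le this
    omega

lemma PerpSpec.map {M : AddSubgroup (Plane p n)} (h : PerpSpec M) (e : Plane p n ≃+ Plane p n)
    (s : ZMod (p ^ n)) (hs : IsUnit s) (he : ∀ x y, det (e x) (e y) = s * det x y) :
    PerpSpec (M.map e.toAddMonoidHom) := by
  have hc : ∀ S : AddSubgroup (Plane p n), Nat.card (S.map e.toAddMonoidHom) = Nat.card S :=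
    fun S => (Nat.card_congr (S.equivMapOfInjective _ e.injective).toEquiv).symm
  constructor
  · rw [perp_map e s hs he, hc, hc]; exact h.card_mul
  · rw [perp_map e s hs he, hc]; exact fun hle => AddSubgroup.map_mono (h.le_of_card_le hle)
  · rw [perp_map e s hs he, hc]
    exact fun hlt => lt_of_le_of_ne (AddSubgroup.map_mono (h.lt_of_card_gt hlt).le)
      fun he' => (h.lt_of_card_gt hlt).ne (AddSubgroup.map_injective e.injective he')

lemma perpSpec_of_max (M : AddSubgroup (Plane p n)) (x : Plane p n) (hx : x ∈ M)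
    (hmax : ∀ y ∈ M, addOrderOf y.1 ≤ addOrderOf x.1 ∧ addOrderOf y.2 ≤ addOrderOf x.1) :
    PerpSpec M := by
  haveI : NeZero (p ^ n) := ⟨pow_ne_zero _ hp.out.ne_zero⟩
  obtain ⟨k, hk, hI⟩ := exists_eq_kerPow (AddSubgroup.zmultiples x.1)
  have hord : addOrderOf x.1 = p ^ k := by
    rw [← Nat.card_zmultiples, hI, card_kerPow hk]
  have hmem : ∀ y : ZMod (p ^ n), addOrderOf y ≤ addOrderOf x.1 → ∃ c : ℤ, c • x.1 = y := by
    intro y hy
    rw [← AddSubgroup.mem_zmultiples_iff, hI]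
    obtain ⟨a, ha, hord'⟩ := exists_eq_kerPow (AddSubgroup.zmultiples y)
    have hak : a ≤ k := by
      rw [hord, ← Nat.card_zmultiples, hord', card_kerPow ha] at hy
      exact (Nat.pow_le_pow_iff_right hp.out.one_lt).mp hy
    exact kerPow_mono hak (hord' ▸ AddSubgroup.mem_zmultiples y)
  obtain ⟨m, hm⟩ := hmem x.2 (hmax x hx).2
  let μ : ZMod (p ^ n) := (m : ZMod (p ^ n))
  have hμ : x.2 = μ * x.1 := by rw [← hm, zsmul_eq_mul]
  let J : AddSubgroup (ZMod (p ^ n)) := M.comap (AddMonoidHom.inr _ _)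
  obtain ⟨l, hl, hJ⟩ := exists_eq_kerPow J
  have hM : M = ((kerPow p n k).prod (kerPow p n l)).map (shear μ).toAddMonoidHom := by
    rw [← hI, ← hJ]
    ext y
    rw [AddSubgroup.mem_map_equiv, AddSubgroup.mem_prod]
    show _ ↔ y.1 ∈ AddSubgroup.zmultiples x.1 ∧ ((0 : ZMod (p ^ n)), y.2 - μ * y.1) ∈ M
    constructor
    · intro hy
      obtain ⟨c, hc⟩ := hmem y.1 (hmax y hy).1
      refine ⟨AddSubgroup.mem_zmultiples_iff.mpr ⟨c, hc⟩, ?_⟩
      convert sub_mem hy (AddSubgroup.zsmul_mem M hx c) using 1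
      ext
      · simp [← hc]
      · simp [← hc, hμ]; ring
    · rintro ⟨h1, h2⟩
      obtain ⟨c, hc⟩ := AddSubgroup.mem_zmultiples_iff.mp h1
      convert add_mem h2 (AddSubgroup.zsmul_mem M hx c) using 1
      ext
      · simp [← hc]
      · simp [← hc, hμ]; ring
  rw [hM]
  exact (perpSpec_prod hk hl).map _ 1 isUnit_one fun a b => by rw [det_shear, one_mul]

theorem perpSpec (M : AddSubgroup (Plane p n)) : PerpSpec M := by
  haveI : NeZero (p ^ n) := ⟨pow_ne_zero _ hp.out.ne_zero⟩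
  obtain ⟨x, hx, hmax⟩ := Set.exists_max_image (M : Set (Plane p n))
    (fun y => max (addOrderOf y.1) (addOrderOf y.2)) (Set.toFinite _) ⟨0, zero_mem _⟩
  rcases le_total (addOrderOf x.2) (addOrderOf x.1) with h | h
  · exact perpSpec_of_max M x hx fun y hy => by
      have := hmax y hy
      simp only [max_eq_left h] at this
      exact max_le_iff.mp this
  · let e : Plane p n ≃+ Plane p n := AddEquiv.prodComm
    have h1 : PerpSpec (M.map e.toAddMonoidHom) := by
      refine perpSpec_of_max _ (x.2, x.1) ⟨x, hx, rfl⟩ ?_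
      rintro _ ⟨y, hy, rfl⟩
      have := hmax y hy
      simp only [max_eq_right h] at this
      exact (max_le_iff.mp this).symm
    have h2 := h1.map e (-1) isUnit_one.neg fun a b => by simp [e, det]
    rwa [AddSubgroup.map_map, show e.toAddMonoidHom.comp e.toAddMonoidHom = AddMonoidHom.id _ from
      rfl, AddSubgroup.map_id] at h2

lemma le_perp_iff (M : AddSubgroup (Plane p n)) : M ≤ perp M ↔ Nat.card M ≤ p ^ n := by
  refine ⟨fun h => ?_, (perpSpec M).le_of_card_le⟩
  by_contra hc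
  exact ((perpSpec M).lt_of_card_gt (not_le.mp hc)).not_ge h

lemma perp_perp (M : AddSubgroup (Plane p n)) : perp (perp M) = M := by
  haveI : NeZero (p ^ n) := ⟨pow_ne_zero _ hp.out.ne_zero⟩
  refine (AddSubgroup.eq_of_le_of_card_ge (fun x hx y hy => ?_) ?_).symm
  · rw [← neg_eq_zero, ← det_comm]; exact hy x hx
  · refine le_of_eq ?_
    have h1 := (perpSpec M).card_mul
    have h2 := (perpSpec (perp M)).card_mul
    have hpos : 0 < Nat.card (perp M) := Nat.card_pos
    nlinarith [Nat.eq_of_mul_eq_mul_left hpos (h2.trans (h1.symm.trans (mul_comm _ _)))]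

end CfsgLib.MetacyclicP
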