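import Cfsg.Agent.MetacyclicP.Gens
import Cfsg.Agent.MetacyclicP.Pairing

/-!
Coordinates `φ : G → (ℤ/p^n)²` of a metacyclic `p`-group, `p` odd, `|G'| = p^n`: the fibres are
the cosets of the centre, elements commute iff their coordinates are perpendicular, and subgroups
over the centre correspond to subgroups of the plane.
-/

set_option autoImplicit false

open Subgroup

namespace CfsgLib.MetacyclicP

universe u

namespace Gens

variable {G : Type u} [Group G] [Finite G] {p : ℕ} [hp : Fact p.Prime] (D : Gens G p)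

/-- The coordinates. -/
noncomputable def phi (g : G) : Plane p D.n :=
  (((D.surj g).choose : ZMod (p ^ D.n)),
    ((geom D.r (D.surj g).choose_spec.choose : ℤ) : ZMod (p ^ D.n)))

variable {D}

lemma phi_eq (hp2 : p ≠ 2) (i : ℤ) (j : ℕ) :
    D.phi (D.a ^ i * D.b ^ j) = ((i : ZMod (p ^ D.n)), ((geom D.r j : ℤ) : ZMod (p ^ D.n))) := by
  have h := D.coord_unique hp2 (D.surj (D.a ^ i * D.b ^ j)).choose_spec.choose_spec.symm
  exact Prod.ext h.1 h.2

lemma phi_surjective (hp2 : p ≠ 2) : Function.Surjective D.phi := by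
  rintro ⟨x, y⟩
  obtain ⟨j, hj⟩ := exists_geom_eq hp2 D.hr D.n y
  obtain ⟨i, hi⟩ := ZMod.intCast_surjective x
  exact ⟨D.a ^ i * D.b ^ j, by rw [phi_eq hp2, hi, hj]⟩

lemma phi_one (hp2 : p ≠ 2) : D.phi 1 = 0 := by
  have := phi_eq (D := D) hp2 0 0
  simpa [geom_zero, Prod.ext_iff] using this

variable (D) in
/-- The multiplier of the crossed homomorphism. -/
noncomputable def chi (g : G) : ZMod (p ^ D.n) := 1 + ((D.r - 1 : ℤ) : ZMod (p ^ D.n)) * (D.phi g).2

lemma phi_mul (hp2 : p ≠ 2) (g h : G) : D.phi (g * h) = D.phi g + D.chi g • D.phi h := by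
  obtain ⟨i, j, rfl⟩ := D.surj g
  obtain ⟨k, l, rfl⟩ := D.surj h
  have hchi : D.chi (D.a ^ i * D.b ^ j) = ((D.r ^ j : ℤ) : ZMod (p ^ D.n)) := by
    rw [chi, phi_eq hp2, ← Int.cast_mul, sub_one_mul_geom]; push_cast; ring
  rw [D.mul_eq, hchi, phi_eq hp2, phi_eq hp2, phi_eq hp2, geom_add]
  ext <;> simp [mul_comm]

lemma isUnit_chi (g : G) : IsUnit (D.chi g) := by
  rw [chi, ← ZMod.intCast_zmod_cast (D.phi g).2, ← Int.cast_mul, add_comm]
  obtain ⟨c, hc⟩ := D.hr
  refine IsNilpotent.isUnit_add_one ⟨D.n, ?_⟩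
  rw [hc, ← Int.cast_pow, ZMod.intCast_zmod_eq_zero_iff_dvd]
  push_cast
  rw [mul_assoc, mul_pow]
  exact dvd_mul_right _ _

lemma exists_phi_smul (hp2 : p ≠ 2) (g : G) (s : ZMod (p ^ D.n)) :
    ∃ m : ℕ, D.phi (g ^ m) = s • D.phi g := by
  obtain ⟨i, j, rfl⟩ := D.surj g
  obtain ⟨m, hm⟩ := exists_geom_eq hp2 (pow_sub_one_dvd D.hr j) D.n s
  refine ⟨m, ?_⟩
  rw [D.pow_eq, phi_eq hp2, phi_eq hp2, geom_mul, ← hm]
  ext <;> simp [mul_comm]

lemma phi_pow (hp2 : p ≠ 2) (g : G) (m : ℕ) :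
    ∃ s : ZMod (p ^ D.n), D.phi (g ^ m) = s • D.phi g := by
  obtain ⟨i, j, rfl⟩ := D.surj g
  refine ⟨((geom (D.r ^ j) m : ℤ) : ZMod (p ^ D.n)), ?_⟩
  rw [D.pow_eq, phi_eq hp2, phi_eq hp2, geom_mul]
  ext <;> simp [mul_comm]

lemma commute_iff_det (hp2 : p ≠ 2) (g h : G) :
    Commute g h ↔ det (D.phi g) (D.phi h) = 0 := by
  obtain ⟨i, j, rfl⟩ := D.surj g
  obtain ⟨k, l, rfl⟩ := D.surj h
  rw [D.commute_iff, phi_eq hp2, phi_eq hp2, det, sub_eq_zero, mul_comm (k : ZMod (p ^ D.n))]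

lemma mem_center_iff_phi (hp2 : p ≠ 2) {g : G} : g ∈ center G ↔ D.phi g = 0 := by
  rw [Subgroup.mem_center_iff]
  constructor
  · intro h
    obtain ⟨u, hu⟩ := phi_surjective (D := D) hp2 (1, 0)
    obtain ⟨v, hv⟩ := phi_surjective (D := D) hp2 (0, 1)
    have h1 := (commute_iff_det (D := D) hp2 g u).mp (h u).symm
    have h2 := (commute_iff_det (D := D) hp2 g v).mp (h v).symm
    rw [hu] at h1; rw [hv] at h2
    simp [det] at h1 h2
    exact Prod.ext h2 h1
  · intro h x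
    exact ((commute_iff_det (D := D) hp2 g x).mpr (by simp [det, h])).eq.symm

lemma phi_eq_phi_iff (hp2 : p ≠ 2) {g h : G} : D.phi g = D.phi h ↔ g⁻¹ * h ∈ center G := by
  have e := phi_mul (D := D) hp2 g (g⁻¹ * h)
  rw [mul_inv_cancel_left] at e
  rw [mem_center_iff_phi hp2, e, left_eq_add, (isUnit_chi g).smul_eq_zero]

variable (D) in
/-- The image of a subgroup, a subgroup of the plane. -/
noncomputable def img (hp2 : p ≠ 2) (H : Subgroup G) : AddSubgroup (Plane p D.n) where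
  carrier := D.phi '' (H : Set G)
  zero_mem' := ⟨1, H.one_mem, phi_one hp2⟩
  add_mem' := by
    rintro _ _ ⟨g, hg, rfl⟩ ⟨k, hk, rfl⟩
    obtain ⟨u, hu⟩ := (isUnit_chi (D := D) g).exists_right_inv
    obtain ⟨m, hm⟩ := exists_phi_smul (D := D) hp2 k u
    exact ⟨g * k ^ m, H.mul_mem hg (H.pow_mem hk m), by
      rw [phi_mul hp2, hm, smul_smul, hu, one_smul]⟩
  neg_mem' := by
    rintro _ ⟨g, hg, rfl⟩
    obtain ⟨m, hm⟩ := exists_phi_smul (D := D) hp2 g (-1)
    exact ⟨g ^ m, H.pow_mem hg m, by rw [hm, neg_one_smul]⟩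

variable (D) in
/-- The preimage of a subgroup of the plane. -/
noncomputable def pre (hp2 : p ≠ 2) (M : AddSubgroup (Plane p D.n)) : Subgroup G where
  carrier := {g | D.phi g ∈ M}
  one_mem' := by show D.phi 1 ∈ M; rw [phi_one hp2]; exact M.zero_mem
  mul_mem' := fun {g h} hg hh => by
    haveI : NeZero (p ^ D.n) := ⟨pow_ne_zero _ hp.out.ne_zero⟩
    show D.phi (g * h) ∈ M
    rw [phi_mul hp2]; exact M.add_mem hg (smul_mem_addSubgroup M _ hh)
  inv_mem' := fun {g} hg => by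
    haveI : NeZero (p ^ D.n) := ⟨pow_ne_zero _ hp.out.ne_zero⟩
    show D.phi g⁻¹ ∈ M
    have h0 := phi_mul (D := D) hp2 g⁻¹ g
    rw [inv_mul_cancel, phi_one hp2] at h0
    rw [eq_neg_of_add_eq_zero_left h0.symm]
    exact M.neg_mem (smul_mem_addSubgroup M _ hg)

lemma center_le_pre (hp2 : p ≠ 2) (M : AddSubgroup (Plane p D.n)) : center G ≤ D.pre hp2 M :=
  fun g hg => by
    show D.phi g ∈ M
    rw [(mem_center_iff_phi hp2).mp hg]; exact M.zero_mem

lemma img_pre (hp2 : p ≠ 2) (M : AddSubgroup (Plane p D.n)) : D.img hp2 (D.pre hp2 M) = M := by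
  ext x
  constructor
  · rintro ⟨g, hg, rfl⟩; exact hg
  · intro hx
    obtain ⟨g, rfl⟩ := phi_surjective (D := D) hp2 x
    exact ⟨g, hx, rfl⟩

lemma le_pre_img (hp2 : p ≠ 2) (H : Subgroup G) : H ≤ D.pre hp2 (D.img hp2 H) :=
  fun g hg => ⟨g, hg, rfl⟩

lemma pre_img (hp2 : p ≠ 2) (H : Subgroup G) : D.pre hp2 (D.img hp2 H) = H ⊔ center G := by
  refine le_antisymm (fun g hg => ?_) (sup_le (le_pre_img hp2 H) (center_le_pre hp2 _))
  obtain ⟨h, hh, he⟩ := hg
  rw [show g = h * (h⁻¹ * g) by group]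
  exact mul_mem (mem_sup_left hh) (mem_sup_right ((phi_eq_phi_iff hp2).mp he))

lemma pre_img_of_le (hp2 : p ≠ 2) {H : Subgroup G} (hH : center G ≤ H) :
    D.pre hp2 (D.img hp2 H) = H := by rw [pre_img, sup_eq_left.mpr hH]

lemma pre_mono (hp2 : p ≠ 2) {M M' : AddSubgroup (Plane p D.n)} (h : M ≤ M') :
    D.pre hp2 M ≤ D.pre hp2 M' := fun _ hg => h hg

lemma card_pre (hp2 : p ≠ 2) (M : AddSubgroup (Plane p D.n)) :
    Nat.card (D.pre hp2 M) = Nat.card (center G) * Nat.card M := by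
  rw [← Nat.card_prod]
  have hs : ∀ x, D.phi (Function.surjInv (phi_surjective (D := D) hp2) x) = x :=
    Function.surjInv_eq (phi_surjective hp2)
  generalize Function.surjInv (phi_surjective (D := D) hp2) = σ at hs
  refine Nat.card_congr (Equiv.ofBijective (fun g => (⟨(σ (D.phi g.1))⁻¹ * g.1,
    (phi_eq_phi_iff hp2).mp (hs _)⟩, ⟨D.phi g.1, g.2⟩)) ⟨?_, ?_⟩)
  · intro g g' h
    simp only [Prod.mk.injEq, Subtype.mk.injEq] at h
    obtain ⟨h1, h2⟩ := h
    have h2v : D.phi g.1 = D.phi g'.1 := congrArg Subtype.val h2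
    rw [h2v] at h1
    exact Subtype.ext (mul_left_cancel h1)
  · rintro ⟨z, x⟩
    have hphi : D.phi (σ x.1 * z.1) = x.1 := by
      rw [phi_mul hp2, (mem_center_iff_phi hp2).mp z.2, smul_zero, add_zero, hs]
    refine ⟨⟨σ x.1 * z.1, ?_⟩, ?_⟩
    · show D.phi _ ∈ M
      rw [hphi]; exact x.2
    · refine Prod.ext (Subtype.ext ?_) (Subtype.ext hphi)
      calc (σ (D.phi (σ x.1 * z.1)))⁻¹ * (σ x.1 * z.1)
          = (σ x.1)⁻¹ * (σ x.1 * z.1) := by
            generalize hw : D.phi (σ x.1 * z.1) = w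
            rw [hphi] at hw
            rw [hw]
        _ = z.1 := inv_mul_cancel_left _ _

lemma centralizer_eq_pre (hp2 : p ≠ 2) (H : Subgroup G) :
    centralizer (H : Set G) = D.pre hp2 (perp (D.img hp2 H)) := by
  ext g
  rw [mem_centralizer_iff]
  show _ ↔ ∀ x ∈ D.img hp2 H, det x (D.phi g) = 0
  constructor
  · rintro h _ ⟨k, hk, rfl⟩; exact (commute_iff_det hp2 k g).mp (h k hk)
  · intro h k hk; exact ((commute_iff_det hp2 k g).mpr (h _ ⟨k, hk, rfl⟩)).eq

lemma centralizer_singleton_eq_pre (hp2 : p ≠ 2) (g : G) :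
    centralizer ({g} : Set G) = D.pre hp2 (perp (AddSubgroup.zmultiples (D.phi g))) := by
  ext h
  rw [mem_centralizer_singleton_iff]
  show _ ↔ ∀ x ∈ AddSubgroup.zmultiples (D.phi g), det x (D.phi h) = 0
  constructor
  · intro hc x hx
    obtain ⟨c, rfl⟩ := AddSubgroup.mem_zmultiples_iff.mp hx
    have h0 := (commute_iff_det (D := D) hp2 g h).mp hc.symm
    rw [show det (c • D.phi g) (D.phi h) = c • det (D.phi g) (D.phi h) by simp [det]; ring, h0,
      smul_zero]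
  · intro hx
    exact ((commute_iff_det hp2 g h).mpr (hx _ (AddSubgroup.mem_zmultiples _))).eq.symm

lemma card_plane : Nat.card (Plane p D.n) = p ^ D.n * p ^ D.n := by simp [Nat.card_prod]

lemma card_eq (hp2 : p ≠ 2) : Nat.card G = Nat.card (center G) * (p ^ D.n * p ^ D.n) := by
  have h : D.pre hp2 ⊤ = ⊤ := top_le_iff.mp fun g _ => AddSubgroup.mem_top (D.phi g)
  rw [← Subgroup.card_top (G := G), ← h, card_pre, AddSubgroup.card_top, card_plane]

lemma index_center (hp2 : p ≠ 2) : (center G).index = p ^ D.n * p ^ D.n := by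
  have h := (center G).card_mul_index
  rw [card_eq (D := D) hp2] at h
  exact Nat.eq_of_mul_eq_mul_left Nat.card_pos h

lemma index_commutator (hp2 : p ≠ 2) :
    (commutator G).index = Nat.card (center G) * p ^ D.n := by
  have h := (commutator G).card_mul_index
  rw [D.card_commutator, card_eq (D := D) hp2] at h
  apply Nat.eq_of_mul_eq_mul_left (pow_pos hp.out.pos D.n)
  rw [h]; ring

lemma isMulCommutative_iff (hp2 : p ≠ 2) (H : Subgroup G) :
    IsMulCommutative H ↔ Nat.card (D.img hp2 H) ≤ p ^ D.n := by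
  rw [← le_perp_iff, ← le_centralizer_iff_isMulCommutative, centralizer_eq_pre hp2]
  constructor
  · rintro h _ ⟨g, hg, rfl⟩; exact h hg
  · exact fun h g hg => h ⟨g, hg, rfl⟩

end Gens

end CfsgLib.MetacyclicP
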