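import Cfsg.Agent.MetacyclicP.Coord

/-!
Centralisers and abelian subgroups of metacyclic `p`-groups, `p` odd.
-/

set_option autoImplicit false

open Subgroup

namespace CfsgLib.MetacyclicP

universe u

/-- In a `p`-group a maximal subgroup contains every `p`-th power. -/
lemma pow_mem_of_isCoatom {G : Type u} [Group G] [Finite G] {p : ℕ} [hp : Fact p.Prime]
    (hG : IsPGroup p G) {K : Subgroup G} (hK : IsCoatom K) (x : G) : x ^ p ∈ K := by
  haveI hKn : K.Normal :=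
    (Group.normalizerCondition_of_isNilpotent (h := hG.isNilpotent)).normal_of_coatom K hK
  haveI : Nontrivial (G ⧸ K) := QuotientGroup.nontrivial_iff.mpr hK.1
  obtain ⟨k, hk, hQ⟩ := (hG.to_quotient K).nontrivial_iff_card.mp this
  obtain ⟨z, hz⟩ := exists_prime_orderOf_dvd_card' p (G := G ⧸ K)
    (hQ ▸ dvd_pow_self p hk.ne')
  have htop : (zpowers z).comap (QuotientGroup.mk' K) = ⊤ := by
    refine hK.2 _ (lt_of_le_of_ne (fun g hg => ?_) fun he => ?_)
    · rw [mem_comap, QuotientGroup.mk'_apply, (QuotientGroup.eq_one_iff g).mpr hg]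
      exact one_mem _
    · obtain ⟨g, rfl⟩ := QuotientGroup.mk_surjective z
      have : g ∈ K := he ▸ (mem_zpowers (g : G ⧸ K))
      rw [(QuotientGroup.eq_one_iff g).mpr this, orderOf_one] at hz
      exact hp.out.one_lt.ne hz
  have hx : (x : G ⧸ K) ∈ zpowers z := by
    have : x ∈ (zpowers z).comap (QuotientGroup.mk' K) := htop ▸ mem_top x
    exact this
  rw [← QuotientGroup.eq_one_iff, QuotientGroup.mk_pow, ← orderOf_dvd_iff_pow_eq_one, ← hz]
  exact orderOf_dvd_of_mem_zpowers hx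

namespace Gens

variable {G : Type u} [Group G] [Finite G] {p : ℕ} [hp : Fact p.Prime] {D : Gens G p}

lemma img_sup_center (hp2 : p ≠ 2) (H : Subgroup G) :
    D.img hp2 (H ⊔ center G) = D.img hp2 H := by
  rw [← pre_img (D := D) hp2 H, img_pre]

lemma centralizer_pre (hp2 : p ≠ 2) (M : AddSubgroup (Plane p D.n)) :
    centralizer (D.pre hp2 M : Set G) = D.pre hp2 (perp M) := by
  rw [centralizer_eq_pre hp2, img_pre]

lemma card_centralizer_mul (D : Gens G p) (hp2 : p ≠ 2) (H : Subgroup G) :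
    Nat.card ↥(H ⊔ center G) * Nat.card ↥(centralizer (H : Set G)) =
      Nat.card G * Nat.card ↥(center G) := by
  rw [← pre_img (D := D) hp2 H, centralizer_eq_pre (D := D) hp2, card_pre, card_pre,
    card_eq (D := D) hp2, ← (perpSpec (D.img hp2 H)).card_mul]
  ring

lemma centralizer_centralizer (D : Gens G p) (hp2 : p ≠ 2) (H : Subgroup G) :
    centralizer (centralizer (H : Set G) : Set G) = H ⊔ center G := by
  rw [centralizer_eq_pre (D := D) hp2 H, centralizer_pre, perp_perp, pre_img]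

lemma card_img (hp2 : p ≠ 2) (H : Subgroup G) :
    Nat.card ↥(H ⊔ center G) = Nat.card ↥(center G) * Nat.card (D.img hp2 H) := by
  rw [← pre_img (D := D) hp2 H, card_pre]

lemma dvd_of_pow_smul_phi {k s : ℕ} (hp2 : p ≠ 2) (hks : k + s = D.n) {i : ℤ} {j : ℕ}
    (h1 : (p : ZMod (p ^ D.n)) ^ k * (i : ZMod (p ^ D.n)) = 0)
    (h2 : (p : ZMod (p ^ D.n)) ^ k * ((geom D.r j : ℤ) : ZMod (p ^ D.n)) = 0) :
    (p : ℤ) ^ s ∣ i ∧ p ^ s ∣ j := by
  have hpk : (p : ℤ) ^ k ≠ 0 := pow_ne_zero _ (by exact_mod_cast hp.out.ne_zero)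
  have key : ∀ x : ℤ, (p : ZMod (p ^ D.n)) ^ k * (x : ZMod (p ^ D.n)) = 0 → (p : ℤ) ^ s ∣ x := by
    intro x hx
    rw [show (p : ZMod (p ^ D.n)) ^ k = (((p : ℤ) ^ k : ℤ) : ZMod (p ^ D.n)) by push_cast; rfl,
      ← Int.cast_mul, ZMod.intCast_zmod_eq_zero_iff_dvd] at hx
    push_cast at hx
    rw [← hks, pow_add] at hx
    exact (mul_dvd_mul_iff_left hpk).mp hx
  exact ⟨key i h1, (pow_dvd_geom_iff hp2 D.hr s j).mp (key _ h2)⟩

lemma center_eq_pow {g : G} (hp2 : p ≠ 2) (hg : g ∈ center G) :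
    ∃ (i : ℤ) (j : ℕ), g = (D.a ^ i) ^ p ^ D.n * (D.b ^ j) ^ p ^ D.n := by
  rw [mem_center_iff_phi (D := D) hp2] at hg
  obtain ⟨i, j, rfl⟩ := D.surj g
  rw [phi_eq hp2, Prod.ext_iff] at hg
  obtain ⟨⟨i', rfl⟩, ⟨j', rfl⟩⟩ := dvd_of_pow_smul_phi (D := D) (k := 0) (s := D.n) hp2
    (by omega) (i := i) (j := j) (by simpa using hg.1) (by simpa using hg.2)
  refine ⟨i', j', ?_⟩
  rw [← zpow_natCast (D.a ^ i'), ← zpow_mul, ← pow_mul, Nat.mul_comm (p ^ D.n) j',
    mul_comm ((p : ℤ) ^ D.n) i']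
  push_cast; rfl

lemma pow_smul_eq_zero_of_mem_perp (hp2 : p ≠ 2) {M : AddSubgroup (Plane p D.n)}
    (hM : p ^ D.n < Nat.card M) (hn : 0 < D.n) {y : Plane p D.n} (hy : y ∈ perp M) :
    p ^ (D.n - 1) • y = 0 := by
  haveI : NeZero (p ^ D.n) := ⟨pow_ne_zero _ hp.out.ne_zero⟩
  by_contra hne
  have hdvd : addOrderOf y ∣ p ^ D.n := addOrderOf_dvd_of_nsmul_eq_zero (by
    ext <;> simp [Prod.smul_def, nsmul_eq_mul, ← Nat.cast_pow])
  obtain ⟨k, hk, hord⟩ := (Nat.dvd_prime_pow hp.out).mp hdvd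
  have hkn : k = D.n := by
    by_contra hk'
    exact hne (addOrderOf_dvd_iff_nsmul_eq_zero.mp (hord ▸ pow_dvd_pow p (by omega)))
  have h1 := (perpSpec (AddSubgroup.zmultiples y)).card_mul
  rw [Nat.card_zmultiples, hord, hkn] at h1
  have h2 := Nat.eq_of_mul_eq_mul_left (pow_pos hp.out.pos _) h1
  have hle : M ≤ perp (AddSubgroup.zmultiples y) := by
    intro x hx z hz
    obtain ⟨c, rfl⟩ := AddSubgroup.mem_zmultiples_iff.mp hz
    rw [show det (c • y) x = c • det y x by simp [det]; ring, det_comm x y, hy x hx, neg_zero,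
      smul_zero]
  have := Nat.card_mono (Set.toFinite _) hle
  simp only [SetLike.coe_sort_coe] at this
  omega

/-- A nonabelian subgroup contains the centre. -/
theorem center_le_of_not_isMulCommutative (D : Gens G p) (hp2 : p ≠ 2) (hG : IsPGroup p G)
    {H : Subgroup G} (hH : ¬ IsMulCommutative H) : center G ≤ H := by
  rw [isMulCommutative_iff (D := D) hp2, not_le] at hH
  haveI : NeZero (p ^ D.n) := ⟨pow_ne_zero _ hp.out.ne_zero⟩
  have hn : 0 < D.n := by
    by_contra h0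
    have hle : Nat.card (D.img hp2 H) ≤ Nat.card (Plane p D.n) :=
      Nat.card_le_card_of_injective _ Subtype.val_injective
    have h1 : p ^ D.n = 1 := by rw [Nat.eq_zero_of_not_pos h0, pow_zero]
    rw [card_plane] at hle
    generalize Nat.card (D.img hp2 H) = m at hle hH
    rw [h1] at hle hH
    omega
  have hin : ∀ x : Plane p D.n, (∃ u, x = p ^ (D.n - 1) • u) → x ∈ D.img hp2 H := by
    rintro x ⟨u, rfl⟩
    rw [← perp_perp (D.img hp2 H)]
    intro y hy
    rw [show det y (p ^ (D.n - 1) • u) = det (p ^ (D.n - 1) • y) u by simp [det]; ring,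
      pow_smul_eq_zero_of_mem_perp hp2 hH hn hy]
    simp [det]
  set L := H ⊔ center G with hL
  have hxa : D.a ^ ((p : ℤ) ^ (D.n - 1)) ∈ L := by
    rw [hL, ← pre_img (D := D) hp2]
    have := phi_eq (D := D) hp2 ((p : ℤ) ^ (D.n - 1)) 0
    rw [pow_zero, mul_one] at this
    show D.phi _ ∈ D.img hp2 H
    exact hin _ ⟨(1, 0), by rw [this]; ext <;> simp [geom_zero, nsmul_eq_mul]⟩
  have hxb : D.b ^ p ^ (D.n - 1) ∈ L := by
    rw [hL, ← pre_img (D := D) hp2]
    have := phi_eq (D := D) hp2 0 (p ^ (D.n - 1))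
    rw [zpow_zero, one_mul] at this
    obtain ⟨ε, hε, -⟩ := geom_prime_pow hp2 (D.n - 1) D.hr
    show D.phi _ ∈ D.img hp2 H
    exact hin _ ⟨(0, (ε : ZMod (p ^ D.n))), by rw [this, hε]; ext <;> simp [nsmul_eq_mul]⟩
  suffices h : H.subgroupOf L = ⊤ from le_trans le_sup_right (Subgroup.subgroupOf_eq_top.mp h)
  by_contra hne
  obtain ⟨K, hK, hHK⟩ := (eq_top_or_exists_le_coatom (H.subgroupOf L)).resolve_left hne
  have hpow : ∀ y : ↥L, y ^ p ∈ K := pow_mem_of_isCoatom (hG.to_subgroup L) hK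
  have hsucc : p ^ D.n = p ^ (D.n - 1) * p := by
    rw [← pow_succ, Nat.sub_add_cancel hn]
  have hcK : ∀ z ∈ center G, z ∈ K.map L.subtype := by
    intro z hz
    obtain ⟨i, j, rfl⟩ := center_eq_pow (D := D) hp2 hz
    refine mul_mem ?_ ?_
    · refine ⟨⟨_, L.zpow_mem hxa i⟩ ^ p, hpow _, ?_⟩
      show ((D.a ^ ((p : ℤ) ^ (D.n - 1))) ^ i) ^ p = _
      rw [hsucc, ← zpow_natCast _ p, ← zpow_natCast _ (p ^ (D.n - 1) * p), ← zpow_mul, ← zpow_mul,
        ← zpow_mul]
      congr 1; push_cast; ring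
    · refine ⟨⟨_, L.pow_mem hxb j⟩ ^ p, hpow _, ?_⟩
      show ((D.b ^ p ^ (D.n - 1)) ^ j) ^ p = _
      rw [hsucc, ← pow_mul, ← pow_mul, ← pow_mul]
      congr 1; ring
  have hall : L ≤ K.map L.subtype :=
    sup_le (fun x hx => ⟨⟨x, mem_sup_left hx⟩, hHK (Subgroup.mem_subgroupOf.mpr hx), rfl⟩) hcK
  apply hK.1
  refine top_le_iff.mp fun y _ => ?_
  obtain ⟨y', hy', he⟩ := hall y.2
  rwa [← Subtype.ext (show (y' : G) = y from he)]

lemma index_centralizer_singleton (D : Gens G p) (hp2 : p ≠ 2) (g : G) :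
    (centralizer ({g} : Set G)).index = addOrderOf (D.phi g) := by
  have h := (centralizer ({g} : Set G)).card_mul_index
  rw [centralizer_singleton_eq_pre (D := D) hp2, card_pre, card_eq (D := D) hp2,
    ← (perpSpec (AddSubgroup.zmultiples (D.phi g))).card_mul, Nat.card_zmultiples] at h
  rw [centralizer_singleton_eq_pre (D := D) hp2]
  have hpos : 0 < Nat.card ↥(center G) * Nat.card (perp (AddSubgroup.zmultiples (D.phi g))) :=
    Nat.mul_pos Nat.card_pos (Nat.pos_of_ne_zero fun h0 => by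
      have := (perpSpec (AddSubgroup.zmultiples (D.phi g))).card_mul
      rw [h0, mul_zero] at this
      exact (Nat.mul_pos (pow_pos hp.out.pos D.n) (pow_pos hp.out.pos D.n)).ne this)
  refine Nat.eq_of_mul_eq_mul_left hpos ?_
  rw [h]; ring

/-- The subgroup of elements whose class has size at most `p ^ k`. -/
noncomputable def layer (D : Gens G p) (hp2 : p ≠ 2) (k : ℕ) : Subgroup G :=
  D.pre hp2 ((kerPow p D.n k).prod (kerPow p D.n k))

lemma mem_layer (hp2 : p ≠ 2) {k : ℕ} {g : G} :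
    g ∈ D.layer hp2 k ↔ (centralizer ({g} : Set G)).index ∣ p ^ k := by
  rw [index_centralizer_singleton D hp2, addOrderOf_dvd_iff_nsmul_eq_zero]
  show D.phi g ∈ (kerPow p D.n k).prod (kerPow p D.n k) ↔ _
  rw [AddSubgroup.mem_prod, mem_kerPow, mem_kerPow, Prod.ext_iff]
  simp [nsmul_eq_mul]

lemma card_layer (hp2 : p ≠ 2) {k : ℕ} (hk : k ≤ D.n) :
    Nat.card (D.layer hp2 k) = Nat.card ↥(center G) * (p ^ k * p ^ k) := by
  haveI : NeZero (p ^ D.n) := ⟨pow_ne_zero _ hp.out.ne_zero⟩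
  rw [layer, card_pre, Nat.card_congr ((kerPow p D.n k).prodEquiv (kerPow p D.n k)).toEquiv,
    Nat.card_prod, card_kerPow hk]

end Gens

end CfsgLib.MetacyclicP
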